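import Cfsg.Agent.H894.ThTwo
import Cfsg.Agent.H419.Row
import Cfsg.Agent.H713.Spor.Tool
import Cfsg.Agent.H620.PNorm

/-!
# Thompson's group, all primes: rows of S4555, S4559 (helper266)

From helper894's characters of `p`-defect zero of `Th`.
-/

set_option autoImplicit false

namespace Cfsg.Agent.H266.PV

open Cfsg Cfsg.Agent.H620.PNorm

universe u

/-- a character of `p`-defect zero gives an element of order `p` -/
theorem vOrdP_of_degree {K : Type u} [Group K] [Finite K] {p n : ℕ} (hp : p.Prime) (χ : IrrCharacter K)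
    (h : p ^ n ∣ charDegree (χ : K → ℂ)) (hn : (Nat.card K).factorization p = n) (h0 : n ≠ 0) : VOrdP p K := by
  have : Fact p.Prime := ⟨hp⟩
  have hd : p ∣ Nat.card K := by
    by_contra hd
    rw [Nat.factorization_eq_zero_of_not_dvd hd] at hn
    exact h0 hn.symm
  obtain ⟨x, hx⟩ := exists_prime_orderOf_dvd_card' (G := K) p hd
  exact ⟨x, hx, H713.HasDZ.vz (Cfsg.Agent.H419.Row.dz_of_dvd χ h hn hp) (by rw [hx])⟩

/-- the same with the quotient of the order by the degree -/
theorem vOrdP_of_not_dvd {K : Type u} [Group K] [Finite K] {p : ℕ} (hp : p.Prime) (χ : IrrCharacter K)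
    (h : ¬ p ∣ Nat.card K / charDegree (χ : K → ℂ)) (hd : p ∣ Nat.card K) : VOrdP p K := by
  obtain ⟨m, hm⟩ := Cfsg.Agent.Blocks.Knorr.charDegree_dvd χ.2
  have hpos : 0 < charDegree (χ : K → ℂ) := Blocks.Basic.charDegree_pos χ.2
  have hK : 0 < Nat.card K := Nat.card_pos
  have hm0 : m ≠ 0 := by
    rintro rfl
    rw [mul_zero] at hm
    omega
  rw [hm, Nat.mul_div_cancel_left _ hpos] at h
  have he : (Nat.card K).factorization p = (charDegree (χ : K → ℂ)).factorization p := by
    rw [hm, Nat.factorization_mul hpos.ne' hm0, Finsupp.add_apply, Nat.factorization_eq_zero_of_not_dvd h, add_zero]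
  refine vOrdP_of_degree (n := (Nat.card K).factorization p) hp χ ?_ rfl ?_
  · rw [he]
    exact Nat.ordProj_dvd _ _
  · exact (hp.factorization_pos_of_dvd hK.ne' hd).ne'

/-- **Thompson's group, every prime** -/
theorem th_p {K : Type u} [Group K] (h : Spor.IsoTh K) {p : ℕ} (hp : p.Prime) (hd : p ∣ 90745943887872000) :
    VOrdP p K := by
  have hc := Cfsg.Agent.Th.Final.card_Th
  have : Finite Cfsg.Spor.Th := Nat.finite_of_card_ne_zero (by rw [hc]; norm_num)
  obtain ⟨χ, -, hχ⟩ := Cfsg.Agent.H894.ThTwo.exists_defect_zero p hp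
  exact (vOrdP_of_not_dvd hp χ hχ (by rw [hc]; exact hd)).mulEquiv h.some.symm

theorem th_2 {K : Type u} [Group K] (h : Spor.IsoTh K) : VOrdP 2 K := th_p h (by norm_num) (by norm_num)
theorem th_3 {K : Type u} [Group K] (h : Spor.IsoTh K) : VOrdP 3 K := th_p h (by norm_num) (by norm_num)
theorem th_5 {K : Type u} [Group K] (h : Spor.IsoTh K) : VOrdP 5 K := th_p h (by norm_num) (by norm_num)
theorem th_7 {K : Type u} [Group K] (h : Spor.IsoTh K) : VOrdP 7 K := th_p h (by norm_num) (by norm_num)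

end Cfsg.Agent.H266.PV
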